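import Cfsg.Agent.Lib.H16.G23.Tab2
import Cfsg.Agent.S1023
import Cfsg.Agent.S1024
import Cfsg.Agent.S1055

/-!
# The action of `G₂(3)` on the `7`-dimensional ideal of its Lie algebra
-/

set_option autoImplicit false

namespace Cfsg.Agent.H16.G23

open Cfsg.Lie Matrix

/-- the ambient general linear group -/
abbrev GL14 := GL chevG2.Idx K3
/-- the group `G₂(3)` -/
abbrev GG : Subgroup GL14 := chevG2.group K3

/-- the block on the ideal -/
def bl (g : GL14) : Matrix (Fin 7) (Fin 7) K3 :=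
  fun i j => (g : Matrix chevG2.Idx chevG2.Idx K3) (iot i) (iot j)

/-- the ideal is invariant -/
def Pres (g : GL14) : Prop :=
  ∀ (u : chevG2.Idx) (j : Fin 7), (∀ i, u ≠ iot i) → (g : Matrix chevG2.Idx chevG2.Idx K3) u (iot j) = 0

/-- the bracket is invariant -/
def Inv7 (A : Matrix (Fin 7) (Fin 7) K3) : Prop :=
  ∀ a b : V7, A *ᵥ P7 a b = P7 (A *ᵥ a) (A *ᵥ b)

lemma iot_inj : Function.Injective iot := by
  unfold Function.Injective
  decide

lemma sum_iot (f : chevG2.Idx → K3) (hf : ∀ u, (∀ i, u ≠ iot i) → f u = 0) :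
    ∑ u, f u = ∑ k : Fin 7, f (iot k) := by
  classical
  have h1 : ∑ k : Fin 7, f (iot k) = ∑ u ∈ Finset.univ.image iot, f u := by
    rw [Finset.sum_image (fun a _ b _ h => iot_inj h)]
  rw [h1]
  symm
  apply Finset.sum_subset (Finset.subset_univ _)
  intro u _ hu
  apply hf
  intro i hi
  exact hu (by simp [hi])

lemma bl_mul (g h : GL14) (hh : Pres h) : bl (g * h) = bl g * bl h := by
  ext i j
  simp only [bl, Units.val_mul, Matrix.mul_apply]
  exact sum_iot _ (fun u hu => by rw [hh u j hu, mul_zero])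

lemma Pres_mul {g h : GL14} (hg : Pres g) (hh : Pres h) : Pres (g * h) := by
  intro u j hu
  rw [Units.val_mul, Matrix.mul_apply, sum_iot _ (fun w hw => by rw [hh w j hw, mul_zero])]
  exact Finset.sum_eq_zero (fun k _ => by rw [hg u k hu, zero_mul])

lemma bl_one : bl 1 = 1 := by
  ext i j
  simp only [bl, Units.val_one, Matrix.one_apply, iot_inj.eq_iff]

lemma Pres_one : Pres 1 := by
  intro u j hu
  simp only [Units.val_one]
  rw [Matrix.one_apply_ne (hu j)]

lemma Inv7_mul {A B : Matrix (Fin 7) (Fin 7) K3} (hA : Inv7 A) (hB : Inv7 B) : Inv7 (A * B) := by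
  intro a b
  rw [← Matrix.mulVec_mulVec, hB, hA, Matrix.mulVec_mulVec, Matrix.mulVec_mulVec]

lemma Inv7_one : Inv7 1 := by
  intro a b
  simp

lemma P7_0 (a b : V7) : P7 a b 0 = a 1 * b 6 + 2 * (a 2 * b 5) + 2 * (a 3 * b 4) + a 4 * b 3 + a 5 * b 2 + 2 * (a 6 * b 1) := rfl
lemma P7_1 (a b : V7) : P7 a b 1 = 2 * (a 0 * b 1) + a 1 * b 0 + a 2 * b 3 + 2 * (a 3 * b 2) := rfl
lemma P7_2 (a b : V7) : P7 a b 2 = a 0 * b 2 + a 1 * b 4 + 2 * (a 2 * b 0) + 2 * (a 4 * b 1) := rfl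
lemma P7_3 (a b : V7) : P7 a b 3 = a 0 * b 3 + 2 * (a 1 * b 5) + 2 * (a 3 * b 0) + a 5 * b 1 := rfl
lemma P7_4 (a b : V7) : P7 a b 4 = 2 * (a 0 * b 4) + 2 * (a 2 * b 6) + a 4 * b 0 + a 6 * b 2 := rfl
lemma P7_5 (a b : V7) : P7 a b 5 = 2 * (a 0 * b 5) + a 3 * b 6 + a 5 * b 0 + 2 * (a 6 * b 3) := rfl
lemma P7_6 (a b : V7) : P7 a b 6 = a 0 * b 6 + a 4 * b 5 + 2 * (a 5 * b 4) + 2 * (a 6 * b 0) := rfl

lemma P7_ext {u v : V7} (h0 : u 0 = v 0) (h1 : u 1 = v 1) (h2 : u 2 = v 2) (h3 : u 3 = v 3) (h4 : u 4 = v 4)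
    (h5 : u 5 = v 5) (h6 : u 6 = v 6) : u = v := by
  funext k
  fin_cases k <;> assumption

/-- the bracket as a bilinear map -/
def P7b : V7 →ₗ[K3] V7 →ₗ[K3] V7 :=
  LinearMap.mk₂ K3 P7
    (by intro a a' b; apply P7_ext <;> simp only [P7_0, P7_1, P7_2, P7_3, P7_4, P7_5, P7_6, Pi.add_apply] <;> ring)
    (by intro c a b; apply P7_ext <;> simp only [P7_0, P7_1, P7_2, P7_3, P7_4, P7_5, P7_6, Pi.smul_apply, smul_eq_mul] <;> ring)
    (by intro a b b'; apply P7_ext <;> simp only [P7_0, P7_1, P7_2, P7_3, P7_4, P7_5, P7_6, Pi.add_apply] <;> ring)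
    (by intro c a b; apply P7_ext <;> simp only [P7_0, P7_1, P7_2, P7_3, P7_4, P7_5, P7_6, Pi.smul_apply, smul_eq_mul] <;> ring)

lemma Inv7_of_basis (A : Matrix (Fin 7) (Fin 7) K3)
    (h : ∀ i j k : Fin 7, (A *ᵥ P7 (Pi.single i 1) (Pi.single j 1)) k =
      P7 (A *ᵥ Pi.single i 1) (A *ᵥ Pi.single j 1) k) : Inv7 A := by
  have key : P7b.compr₂ A.mulVecLin = P7b.compl₁₂ A.mulVecLin A.mulVecLin := by
    refine (Pi.basisFun K3 (Fin 7)).ext fun i => (Pi.basisFun K3 (Fin 7)).ext fun j => ?_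
    ext k
    simpa [P7b] using h i j k
  intro a b
  have := LinearMap.congr_fun₂ key a b
  simpa [P7b] using this

lemma x_eq (r : Fin chevG2.nroots) (t : K3) : chevG2.x K3 r.val t = chevG2.xMat K3 r t := by
  rw [ChevalleyDatum.x, dif_pos r.2]

lemma xMat_mul_neg (r : Fin chevG2.nroots) (t : K3) :
    chevG2.xMat K3 r t * chevG2.xMat K3 r (-t) = 1 := by
  rw [← x_eq, ← x_eq, Cfsg.Agent.S1023.result chevG2 (by simp) r.val r.2, add_neg_cancel]
  exact (Cfsg.Agent.S1024.result chevG2 (by simp) r.val r.2 (0 : K3)).2 rfl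

/-- the root elements -/
def xU (r : Fin chevG2.nroots) (t : K3) : GL14 :=
  ⟨chevG2.xMat K3 r t, chevG2.xMat K3 r (-t), xMat_mul_neg r t, by
    have := xMat_mul_neg r (-t)
    rwa [neg_neg] at this⟩

lemma xU_mem (r : Fin chevG2.nroots) (t : K3) : xU r t ∈ GG :=
  Subgroup.subset_closure ⟨r, t, rfl⟩

lemma xU_pres (r : Fin chevG2.nroots) (t : K3) : Pres (xU r t) :=
  fun u j hu => xT_pres r t u j hu

lemma xU_bl (r : Fin chevG2.nroots) (t : K3) : bl (xU r t) = XT r.val t := by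
  ext i j
  exact xT_eq r t i j

lemma xU_inv (r : Fin chevG2.nroots) (t : K3) : Inv7 (XT r.val t) :=
  Inv7_of_basis _ (xT_inv r t)

lemma mem_props {g : GL14} (hg : g ∈ GG) : Pres g ∧ Inv7 (bl g) := by
  let S : Submonoid GL14 :=
    { carrier := {g | Pres g ∧ Inv7 (bl g)}
      mul_mem' := by
        intro a b ha hb
        refine ⟨Pres_mul ha.1 hb.1, ?_⟩
        rw [bl_mul a b hb.1]
        exact Inv7_mul ha.2 hb.2
      one_mem' := by
        refine ⟨Pres_one, ?_⟩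
        rw [bl_one]
        exact Inv7_one }
  show g ∈ S
  induction hg using Subgroup.closure_induction with
  | mem x hx =>
    obtain ⟨r, t, h⟩ := hx
    have : x = xU r t := Units.ext h
    rw [this]
    refine ⟨xU_pres r t, ?_⟩
    rw [xU_bl]
    exact xU_inv r t
  | one => exact S.one_mem
  | mul x y _ _ h1 h2 => exact S.mul_mem h1 h2
  | inv x _ h =>
    have e : x⁻¹ = x ^ (orderOf x - 1) := by
      apply inv_eq_of_mul_eq_one_right
      rw [← pow_succ', Nat.sub_add_cancel (orderOf_pos x), pow_orderOf_eq_one]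
    rw [e]
    exact S.pow_mem h _

/-- the block homomorphism -/
def blG : ↥GG →* Matrix (Fin 7) (Fin 7) K3 where
  toFun g := bl g.1
  map_one' := bl_one
  map_mul' a b := bl_mul a.1 b.1 (mem_props b.2).1

lemma blG_apply (g : ↥GG) : blG g = bl g.1 := rfl

lemma blG_inv7 (g : ↥GG) : Inv7 (blG g) := (mem_props g.2).2

instance simpleGG : IsSimpleGroup ↥GG :=
  (Cfsg.Agent.S1055.result (F := K3) ⟨2, by decide, by decide⟩).1

/-- the root element as an element of `G₂(3)` -/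
def xG (r : Fin chevG2.nroots) (t : K3) : ↥GG := ⟨xU r t, xU_mem r t⟩

lemma blG_xG (r : Fin chevG2.nroots) (t : K3) : blG (xG r t) = XT r.val t := xU_bl r t

theorem blG_inj : Function.Injective blG := by
  have hk : blG.ker = ⊥ := by
    rcases IsSimpleGroup.eq_bot_or_eq_top_of_normal blG.ker inferInstance with h | h
    · exact h
    · exfalso
      have : xG ⟨7, by decide⟩ 1 ∈ blG.ker := by rw [h]; trivial
      rw [MonoidHom.mem_ker, blG_xG] at this
      exact XT_ne this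
  intro a b hab
  have : a * b⁻¹ ∈ blG.ker := by
    rw [MonoidHom.mem_ker, map_mul, hab, ← map_mul, mul_inv_cancel, map_one]
  rw [hk, Subgroup.mem_bot] at this
  exact mul_inv_eq_one.1 this

end Cfsg.Agent.H16.G23
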