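import Cfsg.Agent.Lib.H16.G23.Block

/-!
# Elements of order `7`, `13` and `6` of `G₂(3)`: centralizers
-/

set_option autoImplicit false

namespace Cfsg.Agent.H16.G23

open Cfsg.Lie Matrix

/-- an element of order `7` -/
def x7G : ↥GG := xG ⟨0, by decide⟩ 1 * xG ⟨1, by decide⟩ 1 * xG ⟨3, by decide⟩ 1 * xG ⟨11, by decide⟩ 1
/-- an element of order `13` -/
def y13G : ↥GG := xG ⟨0, by decide⟩ 1 * xG ⟨4, by decide⟩ 1 * xG ⟨9, by decide⟩ 1
/-- an element of order `6` -/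
def x6G : ↥GG := xG ⟨0, by decide⟩ 1 * xG ⟨11, by decide⟩ 2

lemma bl_x7 : blG x7G = M7 1 := by
  simp only [x7G, map_mul, blG_xG]
  exact M7_one

lemma bl_y13 : blG y13G = M13 1 := by
  simp only [y13G, map_mul, blG_xG]
  exact M13_one

lemma bl_x6 : blG x6G = M6 1 := by
  simp only [x6G, map_mul, blG_xG]
  exact M6_one

lemma bl_x7_pow (k : ℕ) (hk : k ≤ 7) : blG (x7G ^ k) = M7 k := by
  induction k with
  | zero => rw [pow_zero, map_one, M7_zero]
  | succ k ih =>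
    rw [pow_succ, map_mul, ih (by omega), bl_x7]
    exact M7_succ ⟨k, by omega⟩

lemma bl_y13_pow (k : ℕ) (hk : k ≤ 13) : blG (y13G ^ k) = M13 k := by
  induction k with
  | zero => rw [pow_zero, map_one, M13_zero]
  | succ k ih =>
    rw [pow_succ, map_mul, ih (by omega), bl_y13]
    exact M13_succ ⟨k, by omega⟩

lemma bl_x6_pow (k : ℕ) (hk : k ≤ 6) : blG (x6G ^ k) = M6 k := by
  induction k with
  | zero => rw [pow_zero, map_one, M6_zero]
  | succ k ih =>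
    rw [pow_succ, map_mul, ih (by omega), bl_x6]
    exact M6_succ ⟨k, by omega⟩

theorem order_x7 : orderOf x7G = 7 := by
  have : Fact (Nat.Prime 7) := ⟨by norm_num⟩
  apply orderOf_eq_prime
  · apply blG_inj
    rw [bl_x7_pow 7 le_rfl, M7_seven, map_one]
  · intro h
    apply M7_one_ne
    rw [← bl_x7, h, map_one]

theorem order_y13 : orderOf y13G = 13 := by
  have : Fact (Nat.Prime 13) := ⟨by norm_num⟩
  apply orderOf_eq_prime
  · apply blG_inj
    rw [bl_y13_pow 13 le_rfl, M13_thirteen, map_one]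
  · intro h
    apply M13_one_ne
    rw [← bl_y13, h, map_one]

theorem order_x6 : orderOf x6G = 6 := by
  apply orderOf_eq_of_pow_and_pow_div_prime (by norm_num)
  · apply blG_inj
    rw [bl_x6_pow 6 le_rfl, M6_six, map_one]
  · intro p hp hd
    have hp' : p = 2 ∨ p = 3 := by
      have : p ∣ 2 * 3 := hd
      rcases (Nat.Prime.dvd_mul hp).1 this with h | h
      · exact Or.inl ((Nat.prime_dvd_prime_iff_eq hp Nat.prime_two).1 h)
      · exact Or.inr ((Nat.prime_dvd_prime_iff_eq hp Nat.prime_three).1 h)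
    rcases hp' with rfl | rfl
    · intro h
      apply M6_three
      have := congrArg blG h
      rwa [show 6 / 2 = 3 from rfl, bl_x6_pow 3 (by norm_num), map_one] at this
    · intro h
      apply M6_two
      have := congrArg blG h
      rwa [show 6 / 3 = 2 from rfl, bl_x6_pow 2 (by norm_num), map_one] at this

lemma M7_inv7 (k : ℕ) (hk : k ≤ 7) : Inv7 (M7 k) := by
  rw [← bl_x7_pow k hk]
  exact blG_inv7 _

lemma M13_inv7 (k : ℕ) (hk : k ≤ 13) : Inv7 (M13 k) := by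
  rw [← bl_y13_pow k hk]
  exact blG_inv7 _

lemma M7_comm (j k : ℕ) (hj : j ≤ 7) (hk : k ≤ 7) : M7 j * M7 k = M7 k * M7 j := by
  rw [← bl_x7_pow j hj, ← bl_x7_pow k hk, ← map_mul, ← map_mul, ← pow_add, ← pow_add, add_comm]

lemma M13_comm (j k : ℕ) (hj : j ≤ 13) (hk : k ≤ 13) : M13 j * M13 k = M13 k * M13 j := by
  rw [← bl_y13_pow j hj, ← bl_y13_pow k hk, ← map_mul, ← map_mul, ← pow_add, ← pow_add, add_comm]

lemma vec_eta (w : V7) : w = ![w 0, w 1, w 2, w 3, w 4, w 5, w 6] := by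
  funext k
  fin_cases k <;> rfl

/-- Centralizer of the element of order `7`, on the level of matrices. -/
lemma mat7 (A : Matrix (Fin 7) (Fin 7) K3) (hinv : Inv7 A) (hcomm : ∀ k ≤ 7, A * M7 k = M7 k * A)
    (hne : A *ᵥ v7 ≠ 0) : ∃ i : Fin 7, A = M7 i.val := by
  have hM : ∀ k ≤ 7, M7 k *ᵥ (A *ᵥ v7) = A *ᵥ (M7 k *ᵥ v7) := fun k hk => by
    rw [mulVec_mulVec, mulVec_mulVec, hcomm k hk]
  have hS : A * S7 = S7 * A := by
    rw [S7_eq]
    simp only [mul_add, add_mul, hcomm 0 (by norm_num), hcomm 1 (by norm_num), hcomm 2 (by norm_num),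
      hcomm 3 (by norm_num), hcomm 4 (by norm_num), hcomm 5 (by norm_num), hcomm 6 (by norm_num)]
  have hR : A * R7 = R7 * A := by
    rw [R7_eq]
    simp only [mul_add, add_mul, mul_smul_comm, smul_mul_assoc, hcomm 0 (by norm_num), hcomm 1 (by norm_num),
      hcomm 4 (by norm_num), hcomm 5 (by norm_num)]
  have c1 : S7 *ᵥ (A *ᵥ v7) = 0 := by
    rw [mulVec_mulVec, ← hS, ← mulVec_mulVec, S7_v, mulVec_zero]
  have c2 : P7 (A *ᵥ v7) (M7 3 *ᵥ (A *ᵥ v7)) = R7 *ᵥ (A *ᵥ v7) := by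
    rw [hM 3 (by norm_num), ← hinv, R7_v, mulVec_mulVec, mulVec_mulVec, hR]
  have hO := orbit7 ((A *ᵥ v7) 0) ((A *ᵥ v7) 1) ((A *ᵥ v7) 2) ((A *ᵥ v7) 3) ((A *ᵥ v7) 4) ((A *ᵥ v7) 5)
    ((A *ᵥ v7) 6)
  rw [← vec_eta] at hO
  obtain ⟨i, hi⟩ := hO hne c1 c2
  have hi7 : i.val ≤ 7 := by omega
  refine ⟨i, ?_⟩
  have hgood : ∀ k ≤ 7, A *ᵥ (M7 k *ᵥ v7) = M7 i.val *ᵥ (M7 k *ᵥ v7) := fun k hk => by
    rw [← hM k hk, hi, mulVec_mulVec, mulVec_mulVec, M7_comm k i.val hk hi7]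
  have hg6 : A *ᵥ P7 v7 (M7 1 *ᵥ v7) = M7 i.val *ᵥ P7 v7 (M7 1 *ᵥ v7) := by
    rw [hinv, M7_inv7 _ hi7, hi, hgood 1 (by norm_num)]
  have hcol : ∀ t, A *ᵥ T7 t = M7 i.val *ᵥ T7 t := by
    intro t
    unfold T7
    split_ifs with ht
    · exact hgood _ (by omega)
    · exact hg6
  have hB : A * B7 = M7 i.val * B7 := by
    ext k t
    exact congrFun (hcol t) k
  calc A = A * (B7 * Bi7) := by rw [B7_inv, mul_one]
    _ = (A * B7) * Bi7 := by rw [mul_assoc]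
    _ = (M7 i.val * B7) * Bi7 := by rw [hB]
    _ = M7 i.val := by rw [mul_assoc, B7_inv, mul_one]

/-- Centralizer of the element of order `13`, on the level of matrices. -/
lemma mat13 (A : Matrix (Fin 7) (Fin 7) K3) (hinv : Inv7 A) (hcomm : ∀ k ≤ 13, A * M13 k = M13 k * A)
    (hne : A *ᵥ v13 ≠ 0) : ∃ i : Fin 13, A = M13 i.val := by
  have hM : ∀ k ≤ 13, M13 k *ᵥ (A *ᵥ v13) = A *ᵥ (M13 k *ᵥ v13) := fun k hk => by
    rw [mulVec_mulVec, mulVec_mulVec, hcomm k hk]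
  have hS : A * S13 = S13 * A := by
    rw [S13_eq]
    simp only [mul_add, add_mul, mul_smul_comm, smul_mul_assoc, hcomm 0 (by norm_num), hcomm 1 (by norm_num),
      hcomm 3 (by norm_num)]
  have c1 : S13 *ᵥ (A *ᵥ v13) = 0 := by
    rw [mulVec_mulVec, ← hS, ← mulVec_mulVec, S13_v, mulVec_zero]
  have c2 : P7 (P7 (A *ᵥ v13) (M13 1 *ᵥ (A *ᵥ v13))) (P7 (A *ᵥ v13) (M13 2 *ᵥ (A *ᵥ v13))) = A *ᵥ v13 := by
    rw [hM 1 (by norm_num), hM 2 (by norm_num), ← hinv, ← hinv, ← hinv, R13_v]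
  have hO := orbit13 ((A *ᵥ v13) 0) ((A *ᵥ v13) 1) ((A *ᵥ v13) 2) ((A *ᵥ v13) 3) ((A *ᵥ v13) 4)
    ((A *ᵥ v13) 5) ((A *ᵥ v13) 6)
  rw [← vec_eta] at hO
  obtain ⟨i, hi⟩ := hO hne c1 c2
  have hi7 : i.val ≤ 13 := by omega
  refine ⟨i, ?_⟩
  have hgood : ∀ k ≤ 13, A *ᵥ (M13 k *ᵥ v13) = M13 i.val *ᵥ (M13 k *ᵥ v13) := fun k hk => by
    rw [← hM k hk, hi, mulVec_mulVec, mulVec_mulVec, M13_comm k i.val hk hi7]
  have hP : ∀ u u' : V7, A *ᵥ u = M13 i.val *ᵥ u → A *ᵥ u' = M13 i.val *ᵥ u' →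
      A *ᵥ P7 u u' = M13 i.val *ᵥ P7 u u' := by
    intro u u' h h'
    rw [hinv, M13_inv7 _ hi7, h, h']
  have g0 : A *ᵥ v13 = M13 i.val *ᵥ v13 := hi
  have g1 := hgood 1 (by norm_num)
  have g2 := hgood 2 (by norm_num)
  have hcol : ∀ t, A *ᵥ T13 t = M13 i.val *ᵥ T13 t := by
    intro t
    unfold T13
    split_ifs with h1 h2 h3 h4
    · exact hgood _ (by omega)
    · exact hP _ _ g0 g1
    · exact hP _ _ g0 g2
    · exact hP _ _ g1 g2
    · exact hP _ _ g0 (hP _ _ g1 g2)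
  have hB : A * B13 = M13 i.val * B13 := by
    ext k t
    exact congrFun (hcol t) k
  calc A = A * (B13 * Bi13) := by rw [B13_inv, mul_one]
    _ = (A * B13) * Bi13 := by rw [mul_assoc]
    _ = (M13 i.val * B13) * Bi13 := by rw [hB]
    _ = M13 i.val := by rw [mul_assoc, B13_inv, mul_one]

lemma blG_mulVec_ne (g : ↥GG) (v : V7) (hv : v ≠ 0) : blG g *ᵥ v ≠ 0 := by
  intro h
  apply hv
  have : (blG g⁻¹ * blG g) *ᵥ v = 0 := by
    rw [← mulVec_mulVec, h, mulVec_zero]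
  rwa [← map_mul, inv_mul_cancel, map_one, one_mulVec] at this

theorem cent7 (g : ↥GG) (hc : g * x7G = x7G * g) : g ∈ Subgroup.zpowers x7G := by
  have hcm : Commute g x7G := hc
  obtain ⟨i, hi⟩ := mat7 (blG g) (blG_inv7 g)
    (fun k hk => by
      rw [← bl_x7_pow k hk, ← map_mul, ← map_mul, (hcm.pow_right k).eq])
    (blG_mulVec_ne g v7 v7_ne)
  have : g = x7G ^ i.val := by
    apply blG_inj
    rw [hi, bl_x7_pow _ (by omega)]
  rw [this]
  exact Subgroup.npow_mem_zpowers _ _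

theorem cent13 (g : ↥GG) (hc : g * y13G = y13G * g) : g ∈ Subgroup.zpowers y13G := by
  have hcm : Commute g y13G := hc
  obtain ⟨i, hi⟩ := mat13 (blG g) (blG_inv7 g)
    (fun k hk => by
      rw [← bl_y13_pow k hk, ← map_mul, ← map_mul, (hcm.pow_right k).eq])
    (blG_mulVec_ne g v13 v13_ne)
  have : g = y13G ^ i.val := by
    apply blG_inj
    rw [hi, bl_y13_pow _ (by omega)]
  rw [this]
  exact Subgroup.npow_mem_zpowers _ _

end Cfsg.Agent.H16.G23
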