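import Mathlib
import Cfsg.Agent.Lib.Lead.CardSL

/-!
# `PSL₂(13)`: order and element orders
-/

set_option autoImplicit false

namespace Cfsg.Agent.H16.G23

open Matrix

/-- the Chebyshev sequence -/
def uu {R : Type*} [CommRing R] (t : R) : ℕ → R
  | 0 => 0
  | 1 => 1
  | (n + 2) => t * uu t (n + 1) - uu t n

lemma uu_map {R S : Type*} [CommRing R] [CommRing S] (f : R →+* S) (t : R) (n : ℕ) :
    f (uu t n) = uu (f t) n ∧ f (uu t (n + 1)) = uu (f t) (n + 1) := by
  induction n with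
  | zero => simp [uu]
  | succ n ih =>
    refine ⟨ih.2, ?_⟩
    simp only [uu, map_sub, map_mul, ih.1, ih.2]

theorem uu_zmod : ∀ s : ZMod 13, uu s 6 = 0 ∨ uu s 7 = 0 ∨ uu s 13 = 0 := by decide +kernel

variable {E : Type*} [Field E]

/-- The powers of a matrix of `SL₂`. -/
lemma sl2_pow (A : SpecialLinearGroup (Fin 2) E) (n : ℕ) :
    ((A : Matrix (Fin 2) (Fin 2) E)) ^ (n + 1) =
      uu (A.1 0 0 + A.1 1 1) (n + 1) • (A : Matrix (Fin 2) (Fin 2) E) -
        uu (A.1 0 0 + A.1 1 1) n • (1 : Matrix (Fin 2) (Fin 2) E) := by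
  set t := A.1 0 0 + A.1 1 1 with ht
  have hdet : A.1 0 0 * A.1 1 1 - A.1 0 1 * A.1 1 0 = 1 := by
    have := A.2
    rwa [Matrix.det_fin_two] at this
  have hsq : (A : Matrix (Fin 2) (Fin 2) E) * (A : Matrix (Fin 2) (Fin 2) E) =
      t • (A : Matrix (Fin 2) (Fin 2) E) - (1 : Matrix (Fin 2) (Fin 2) E) := by
    ext i j
    fin_cases i <;> fin_cases j <;>
      simp [Matrix.mul_apply, Fin.sum_univ_two, ht] <;>
      first
        | (linear_combination (-1 : E) * hdet)
        | ring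
        | skip
  induction n with
  | zero => simp [uu]
  | succ n ih =>
    rw [pow_succ, ih, sub_mul, smul_mul_assoc, smul_mul_assoc, one_mul, hsq]
    simp only [uu]
    module

/-- A matrix of `SL₂` that is scalar is central. -/
lemma mem_center_of_scalar (B : SpecialLinearGroup (Fin 2) E) (r : E)
    (h : (B : Matrix (Fin 2) (Fin 2) E) = r • (1 : Matrix (Fin 2) (Fin 2) E)) :
    B ∈ Subgroup.center (SpecialLinearGroup (Fin 2) E) := by
  rw [Matrix.SpecialLinearGroup.mem_center_iff]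
  refine ⟨r, ?_, ?_⟩
  · have h1 := B.2
    rw [h, Matrix.det_smul, Matrix.det_one] at h1
    simpa using h1
  · rw [h]
    ext i j
    simp [Matrix.scalar_apply, Matrix.smul_apply, Matrix.one_apply, Matrix.diagonal_apply]

lemma pow_mem_center_of_uu (A : SpecialLinearGroup (Fin 2) E) (n : ℕ)
    (h : uu (A.1 0 0 + A.1 1 1) (n + 1) = 0) :
    A ^ (n + 1) ∈ Subgroup.center (SpecialLinearGroup (Fin 2) E) := by
  apply mem_center_of_scalar _ (- uu (A.1 0 0 + A.1 1 1) n)
  rw [Matrix.SpecialLinearGroup.coe_pow, sl2_pow, h, zero_smul, zero_sub, neg_smul]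

variable [Fintype E]

theorem psl13_pow (hE : Fintype.card E = 13) (y : ProjectiveSpecialLinearGroup (Fin 2) E) :
    y ^ 6 = 1 ∨ y ^ 7 = 1 ∨ y ^ 13 = 1 := by
  obtain ⟨A, rfl⟩ := QuotientGroup.mk_surjective y
  have hp : Nat.Prime 13 := by norm_num
  let ψ : ZMod 13 ≃+* E := ZMod.ringEquivOfPrime E hp hE
  obtain ⟨s, hs⟩ := ψ.surjective (A.1 0 0 + A.1 1 1)
  have hu : ∀ n, ψ (uu s n) = uu (A.1 0 0 + A.1 1 1) n := by
    intro n
    rw [← hs]
    exact (uu_map ψ.toRingHom s n).1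
  have key : ∀ n, uu s (n + 1) = 0 →
      ((QuotientGroup.mk A : ProjectiveSpecialLinearGroup (Fin 2) E)) ^ (n + 1) = 1 := by
    intro n hn
    rw [← QuotientGroup.mk_pow, QuotientGroup.eq_one_iff]
    apply pow_mem_center_of_uu
    rw [← hu, hn, map_zero]
  rcases uu_zmod s with h | h | h
  · exact Or.inl (key 5 h)
  · exact Or.inr (Or.inl (key 6 h))
  · exact Or.inr (Or.inr (key 12 h))

theorem psl13_exists (hE : Fintype.card E = 13) :
    ∃ y : ProjectiveSpecialLinearGroup (Fin 2) E, orderOf y = 6 := by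
  have hp : Nat.Prime 13 := by norm_num
  let ψ : ZMod 13 ≃+* E := ZMod.ringEquivOfPrime E hp hE
  let a : E := ψ 2
  let b : E := ψ 7
  have hab : a * b = 1 := by
    show ψ 2 * ψ 7 = 1
    rw [← map_mul, show (2 : ZMod 13) * 7 = 1 by decide, map_one]
  let A : SpecialLinearGroup (Fin 2) E :=
    ⟨Matrix.diagonal ![a, b], by rw [Matrix.det_fin_two]; simp [hab]⟩
  have hA : ∀ k : ℕ, ((A ^ k : SpecialLinearGroup (Fin 2) E) : Matrix (Fin 2) (Fin 2) E) =
      Matrix.diagonal ![a ^ k, b ^ k] := by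
    intro k
    rw [Matrix.SpecialLinearGroup.coe_pow]
    show (Matrix.diagonal ![a, b]) ^ k = _
    rw [Matrix.diagonal_pow]
    congr 1
    ext i
    fin_cases i <;> simp
  have hcen : ∀ k : ℕ, a ^ k = b ^ k →
      ((QuotientGroup.mk A : ProjectiveSpecialLinearGroup (Fin 2) E)) ^ k = 1 := by
    intro k hk
    rw [← QuotientGroup.mk_pow, QuotientGroup.eq_one_iff]
    apply mem_center_of_scalar _ (a ^ k)
    rw [hA, hk]
    ext i j
    fin_cases i <;> fin_cases j <;> simp [Matrix.one_apply, hk]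
  have hcen' : ∀ k : ℕ, ((QuotientGroup.mk A : ProjectiveSpecialLinearGroup (Fin 2) E)) ^ k = 1 →
      a ^ k = b ^ k := by
    intro k hk
    rw [← QuotientGroup.mk_pow, QuotientGroup.eq_one_iff, Matrix.SpecialLinearGroup.mem_center_iff] at hk
    obtain ⟨r, _, hr⟩ := hk
    have h0 := congrFun (congrFun hr 0) 0
    have h1 := congrFun (congrFun hr 1) 1
    rw [hA] at h0 h1
    simp [Matrix.scalar_apply, Matrix.diagonal_apply] at h0 h1
    rw [← h0, ← h1]
  refine ⟨QuotientGroup.mk A, orderOf_eq_of_pow_and_pow_div_prime (by norm_num) ?_ ?_⟩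
  · apply hcen
    show (ψ 2) ^ 6 = (ψ 7) ^ 6
    rw [← map_pow, ← map_pow, show (2 : ZMod 13) ^ 6 = 7 ^ 6 by decide]
  · intro p hp hd
    have hp' : p = 2 ∨ p = 3 := by
      have : p ∣ 2 * 3 := hd
      rcases (Nat.Prime.dvd_mul hp).1 this with h | h
      · exact Or.inl ((Nat.prime_dvd_prime_iff_eq hp Nat.prime_two).1 h)
      · exact Or.inr ((Nat.prime_dvd_prime_iff_eq hp Nat.prime_three).1 h)
    rcases hp' with rfl | rfl
    · intro h
      have := hcen' 3 h
      have h2 : (ψ 2) ^ 3 = (ψ 7) ^ 3 := this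
      rw [← map_pow, ← map_pow] at h2
      exact absurd (ψ.injective h2) (by decide)
    · intro h
      have := hcen' 2 h
      have h2 : (ψ 2) ^ 2 = (ψ 7) ^ 2 := this
      rw [← map_pow, ← map_pow] at h2
      exact absurd (ψ.injective h2) (by decide)

theorem psl13_card (hE : Fintype.card E = 13) :
    Nat.card (ProjectiveSpecialLinearGroup (Fin 2) E) = 1092 := by
  have h := Cfsg.Agent.Lead.card_PSL (F := E) 2 (by norm_num)
  rw [hE, Fin.prod_univ_two] at h
  norm_num at h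
  omega

end Cfsg.Agent.H16.G23
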