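import Mathlib

/-!
# Elements whose order is divisible by a prime with a self-centralizing element of that order
-/

set_option autoImplicit false

namespace Cfsg.Agent.H16.G23

variable {G : Type*} [Group G] [Finite G]

/-- If `p` exactly divides `|G|` and `x` of order `p` has centralizer `⟨x⟩`, then every element of order
divisible by `p` has order `p`. -/
theorem orderOf_eq_of_self_cent {p : ℕ} [hp : Fact p.Prime] (hp2 : ¬ p ^ 2 ∣ Nat.card G) (x : G)
    (hx : orderOf x = p) (hc : ∀ g : G, g * x = x * g → g ∈ Subgroup.zpowers x) (z : G)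
    (hz : p ∣ orderOf z) : orderOf z = p := by
  classical
  have hn : orderOf z ≠ 0 := (orderOf_pos z).ne'
  set u : G := z ^ (orderOf z / p) with hu
  have hou : orderOf u = p := orderOf_pow_orderOf_div hn hz
  have hdvd : p ∣ Nat.card G := hx ▸ orderOf_dvd_natCard x
  have hfac : (Nat.card G).factorization p = 1 := by
    have hne : Nat.card G ≠ 0 := Nat.card_pos.ne'
    have h1 : 1 ≤ (Nat.card G).factorization p :=
      (hp.out.dvd_iff_one_le_factorization hne).1 hdvd
    have h2 : (Nat.card G).factorization p < 2 := by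
      by_contra h
      exact hp2 ((hp.out.pow_dvd_iff_le_factorization hne).2 (not_lt.1 h))
    omega
  have hQ : ∀ Q : Sylow p G, Nat.card Q = p := by
    intro Q
    rw [Sylow.card_eq_multiplicity, hfac, pow_one]
  have hP : ∀ y : G, orderOf y = p → ∃ Q : Sylow p G, (Q : Subgroup G) = Subgroup.zpowers y := by
    intro y hy
    have hc' : Nat.card (Subgroup.zpowers y) = p := by rw [Nat.card_zpowers, hy]
    have hpg : IsPGroup p (Subgroup.zpowers y) :=
      IsPGroup.of_card (n := 1) (by rw [hc', pow_one])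
    obtain ⟨Q, hQ'⟩ := hpg.exists_le_sylow
    refine ⟨Q, (Subgroup.eq_of_le_of_card_ge hQ' ?_).symm⟩
    rw [hc', hQ Q]
  obtain ⟨Q1, hQ1⟩ := hP x hx
  obtain ⟨Q2, hQ2⟩ := hP u hou
  obtain ⟨h, hh⟩ := MulAction.exists_smul_eq G Q2 Q1
  have hmem : h * u * h⁻¹ ∈ Subgroup.zpowers x := by
    rw [← hQ1, ← hh, Sylow.coe_subgroup_smul]
    refine Subgroup.mem_pointwise_smul_iff_inv_smul_mem.2 ?_
    rw [hQ2]
    have : (MulAut.conj h)⁻¹ • (h * u * h⁻¹) = u := by
      simp [MulAut.smul_def, MulAut.conj_inv_apply, mul_assoc]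
    simpa [this] using Subgroup.mem_zpowers u
  set u' : G := h * u * h⁻¹ with hu'
  have hou' : orderOf u' = p := by
    rw [hu', ← MulAut.conj_apply, MulEquiv.orderOf_eq, hou]
  have hzp : Subgroup.zpowers u' = Subgroup.zpowers x := by
    apply Subgroup.eq_of_le_of_card_ge
    · exact (Subgroup.zpowers_le).2 hmem
    · rw [Nat.card_zpowers, Nat.card_zpowers, hx, hou']
  have hxm : x ∈ Subgroup.zpowers u' := by
    rw [hzp]; exact Subgroup.mem_zpowers x
  set z' : G := h * z * h⁻¹ with hz'
  have hcomm : Commute z' u' := by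
    have e1 : u' = z' ^ (orderOf z / p) := by
      rw [hu', hu, hz', ← MulAut.conj_apply, ← MulAut.conj_apply, map_pow]
    rw [e1]
    exact (Commute.refl z').pow_right _
  have hcx : z' * x = x * z' := by
    obtain ⟨k, hk⟩ := Subgroup.mem_zpowers_iff.1 hxm
    rw [← hk]
    exact (hcomm.zpow_right k).eq
  have hmem2 := hc z' hcx
  have h1 : orderOf z' ∣ p := by
    have := orderOf_dvd_of_mem_zpowers hmem2
    rwa [hx] at this
  have h2 : orderOf z' = orderOf z := by
    rw [hz', ← MulAut.conj_apply, MulEquiv.orderOf_eq]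
  rw [h2] at h1
  exact Nat.dvd_antisymm h1 hz

end Cfsg.Agent.H16.G23
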