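import Cfsg.Agent.Lib.H16.G23.Cent
import Cfsg.Agent.Lib.H16.G23.Syl
import Cfsg.Agent.Lib.H16.G23.PSLs
import Cfsg.Agent.Lib.H01.ChevT
import Cfsg.Agent.S1059

/-!
# `G₂(3)` and `PSL₂(13)`: element orders
-/

set_option autoImplicit false

namespace Cfsg.Agent.H16.G23

open Cfsg.Lie

theorem card_GG : Nat.card ↥GG = 4245696 := by
  have h := Cfsg.Agent.S1059.result (F := K3) (q := 3) (ZMod.card 3)
  rw [h]
  norm_num

lemma prime_cases_G {r : ℕ} (hr : r.Prime) (h : r ∣ 4245696) : r = 2 ∨ r = 3 ∨ r = 7 ∨ r = 13 := by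
  have e : 4245696 = 2 ^ 6 * 3 ^ 6 * 7 * 13 := by norm_num
  rw [e] at h
  rcases (Nat.Prime.dvd_mul hr).1 h with h | h
  · rcases (Nat.Prime.dvd_mul hr).1 h with h | h
    · rcases (Nat.Prime.dvd_mul hr).1 h with h | h
      · exact Or.inl ((Nat.prime_dvd_prime_iff_eq hr Nat.prime_two).1 (hr.dvd_of_dvd_pow h))
      · exact Or.inr (Or.inl ((Nat.prime_dvd_prime_iff_eq hr Nat.prime_three).1 (hr.dvd_of_dvd_pow h)))
    · exact Or.inr (Or.inr (Or.inl ((Nat.prime_dvd_prime_iff_eq hr (by norm_num)).1 h)))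
  · exact Or.inr (Or.inr (Or.inr ((Nat.prime_dvd_prime_iff_eq hr (by norm_num)).1 h)))

lemma prime_cases_L {r : ℕ} (hr : r.Prime) (h : r ∣ 1092) : r = 2 ∨ r = 3 ∨ r = 7 ∨ r = 13 := by
  apply prime_cases_G hr
  exact h.trans (by norm_num)

theorem order_GG_of_primes {r s : ℕ} (hr : r.Prime) (hs : s.Prime) (hrs : r ≠ s) (z : ↥GG)
    (hz : orderOf z = r * s) : r * s = 6 := by
  have h7 : Fact (Nat.Prime 7) := ⟨by norm_num⟩
  have h13 : Fact (Nat.Prime 13) := ⟨by norm_num⟩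
  have hd : orderOf z ∣ 4245696 := card_GG ▸ orderOf_dvd_natCard z
  have hc7 : 7 ∣ orderOf z → orderOf z = 7 := fun h =>
    orderOf_eq_of_self_cent (p := 7) (by rw [card_GG]; norm_num) x7G order_x7 cent7 z h
  have hc13 : 13 ∣ orderOf z → orderOf z = 13 := fun h =>
    orderOf_eq_of_self_cent (p := 13) (by rw [card_GG]; norm_num) y13G order_y13 cent13 z h
  have hr' := prime_cases_G hr ((Dvd.intro _ hz.symm).trans hd)
  have hs' := prime_cases_G hs ((Dvd.intro_left _ hz.symm).trans hd)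
  have hne7 : r * s ≠ 7 := fun h => by
    have := (Nat.prime_mul_iff.1 (by rw [h]; norm_num : Nat.Prime (r * s)))
    rcases this with ⟨_, h1⟩ | ⟨_, h1⟩
    · exact hs.one_lt.ne' h1
    · exact hr.one_lt.ne' h1
  have hne13 : r * s ≠ 13 := fun h => by
    have := (Nat.prime_mul_iff.1 (by rw [h]; norm_num : Nat.Prime (r * s)))
    rcases this with ⟨_, h1⟩ | ⟨_, h1⟩
    · exact hs.one_lt.ne' h1
    · exact hr.one_lt.ne' h1
  have hn7r : r ≠ 7 := fun h => hne7 (hz ▸ hc7 (hz ▸ (h ▸ Dvd.intro _ rfl)))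
  have hn7s : s ≠ 7 := fun h => hne7 (hz ▸ hc7 (hz ▸ (h ▸ Dvd.intro_left _ rfl)))
  have hn13r : r ≠ 13 := fun h => hne13 (hz ▸ hc13 (hz ▸ (h ▸ Dvd.intro _ rfl)))
  have hn13s : s ≠ 13 := fun h => hne13 (hz ▸ hc13 (hz ▸ (h ▸ Dvd.intro_left _ rfl)))
  rcases hr' with rfl | rfl | rfl | rfl
  · rcases hs' with rfl | rfl | rfl | rfl
    · exact absurd rfl hrs
    · rfl
    · exact absurd rfl hn7s
    · exact absurd rfl hn13s
  · rcases hs' with rfl | rfl | rfl | rfl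
    · rfl
    · exact absurd rfl hrs
    · exact absurd rfl hn7s
    · exact absurd rfl hn13s
  · exact absurd rfl hn7r
  · exact absurd rfl hn13r

theorem order_PSL_of_primes {E : Type*} [Field E] [Fintype E] (hE : Fintype.card E = 13) {r s : ℕ}
    (hr : r.Prime) (hs : s.Prime) (hrs : r ≠ s) (y : Matrix.ProjectiveSpecialLinearGroup (Fin 2) E)
    (hy : orderOf y = r * s) : r * s = 6 := by
  have hp13 : Nat.Prime 13 := by norm_num
  have hp7 : Nat.Prime 7 := by norm_num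
  have hne : ∀ q : ℕ, q.Prime → r * s ∣ q → False := by
    intro q hq hd
    rcases (Nat.dvd_prime hq).1 hd with h | h
    · exact absurd (Nat.le_of_dvd one_pos (Dvd.intro _ h)) (by have := hr.one_lt; omega)
    · have := Nat.prime_mul_iff.1 (h ▸ hq)
      rcases this with ⟨_, h1⟩ | ⟨_, h1⟩
      · exact hs.one_lt.ne' h1
      · exact hr.one_lt.ne' h1
  rcases psl13_pow hE y with h | h | h
  · have hd : r * s ∣ 6 := hy ▸ orderOf_dvd_of_pow_eq_one h
    have hr6 : r ∣ 2 * 3 := (Dvd.intro _ rfl).trans hd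
    have hs6 : s ∣ 2 * 3 := (Dvd.intro_left _ rfl).trans hd
    have h2 : r = 2 ∨ r = 3 := by
      rcases (Nat.Prime.dvd_mul hr).1 hr6 with h | h
      · exact Or.inl ((Nat.prime_dvd_prime_iff_eq hr Nat.prime_two).1 h)
      · exact Or.inr ((Nat.prime_dvd_prime_iff_eq hr Nat.prime_three).1 h)
    have h3 : s = 2 ∨ s = 3 := by
      rcases (Nat.Prime.dvd_mul hs).1 hs6 with h | h
      · exact Or.inl ((Nat.prime_dvd_prime_iff_eq hs Nat.prime_two).1 h)
      · exact Or.inr ((Nat.prime_dvd_prime_iff_eq hs Nat.prime_three).1 h)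
    rcases h2 with rfl | rfl <;> rcases h3 with rfl | rfl
    · exact absurd rfl hrs
    · rfl
    · rfl
    · exact absurd rfl hrs
  · exact (hne 7 hp7 (hy ▸ orderOf_dvd_of_pow_eq_one h)).elim
  · exact (hne 13 hp13 (hy ▸ orderOf_dvd_of_pow_eq_one h)).elim

end Cfsg.Agent.H16.G23
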