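import Mathlib
import Cfsg.Prelude.Def_ChevG2

/-!
# The 7-dimensional ideal of the Lie algebra of type `G₂` in characteristic `3`: tables
-/

set_option autoImplicit false
set_option maxRecDepth 100000

namespace Cfsg.Agent.H16.G23

open Cfsg.Lie

/-- the field with three elements -/
abbrev K3 := ZMod 3

/-- vectors of the ideal -/
abbrev V7 := Fin 7 → K3

/-- the coordinates of the ideal -/
def iot : Fin 7 → chevG2.Idx :=
  ![Sum.inl ⟨0, by decide⟩, Sum.inr ⟨2, by decide⟩, Sum.inr ⟨3, by decide⟩, Sum.inr ⟨4, by decide⟩,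
    Sum.inr ⟨7, by decide⟩, Sum.inr ⟨8, by decide⟩, Sum.inr ⟨9, by decide⟩]

/-- the blocks of the root elements, coded in base three -/
def xCodes : Array ℕ := #[79778602595634228233767, 79778602595641202334010, 79778602595637716081050, 79778602595634228233767, 79778602610885423380888, 79778602603259826073048, 79778602595634228233767, 79778602600718350502476, 79778602598176872097552, 79778602595634228233767, 79778635949999961715312, 79778619272818257324580, 79778602595634228233767, 79815075593726896984990, 79851548590093607398426, 79778602595634228233767, 79778608154695053069616, 79778613713755490484976, 79778602595634228233767, 79782655150975533567688, 79786707706034409365128, 79778602595634228233767, 106367418212815345242250, 132956232594649626636118, 79778602595634228233767, 97505429434327492479676, 88642541346251471443072, 79778602595634228233767, 80656656418012805186272, 80545886783054751929620, 79778602595634228233767, 85687228077366272995936, 82732915439445816662176, 79778602595634228233767, 81748294494636747698650, 80763673687088433464890]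

/-- a digit as a field element -/
def dig (n : ℕ) : K3 := if n = 0 then 0 else if n = 1 then 1 else 2

/-- entries of a coded matrix -/
def entry (c : ℕ) (i j : Fin 7) : K3 := dig ((c / 3 ^ (7 * i.val + j.val)) % 3)

/-- the block of `x_r(t)` -/
def XE (r : ℕ) (t : K3) (i j : Fin 7) : K3 :=
  entry (xCodes.getD (r * 3 + t.val) 0) i j

/-- the block of `x_r(t)` as a matrix -/
def XT (r : ℕ) (t : K3) : Matrix (Fin 7) (Fin 7) K3 := Matrix.of (XE r t)

/-- the bracket on the ideal -/
def P7 (a b : V7) : V7 :=
  ![a 1 * b 6 + 2 * (a 2 * b 5) + 2 * (a 3 * b 4) + a 4 * b 3 + a 5 * b 2 + 2 * (a 6 * b 1),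
    2 * (a 0 * b 1) + a 1 * b 0 + a 2 * b 3 + 2 * (a 3 * b 2),
    a 0 * b 2 + a 1 * b 4 + 2 * (a 2 * b 0) + 2 * (a 4 * b 1),
    a 0 * b 3 + 2 * (a 1 * b 5) + 2 * (a 3 * b 0) + a 5 * b 1,
    2 * (a 0 * b 4) + 2 * (a 2 * b 6) + a 4 * b 0 + a 6 * b 2,
    2 * (a 0 * b 5) + a 3 * b 6 + a 5 * b 0 + 2 * (a 6 * b 3),
    a 0 * b 6 + a 4 * b 5 + 2 * (a 5 * b 4) + 2 * (a 6 * b 0)]

theorem xT_eq : ∀ (r : Fin chevG2.nroots) (t : K3) (i j : Fin 7),
    chevG2.xMat K3 r t (iot i) (iot j) = XE r.val t i j := by decide +kernel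

theorem xT_pres : ∀ (r : Fin chevG2.nroots) (t : K3) (u : chevG2.Idx) (j : Fin 7),
    (∀ i, u ≠ iot i) → chevG2.xMat K3 r t u (iot j) = 0 := by decide +kernel

theorem xT_inv : ∀ (r : Fin chevG2.nroots) (t : K3) (i j k : Fin 7),
    (XT r.val t).mulVec (P7 (Pi.single i 1) (Pi.single j 1)) k =
      P7 ((XT r.val t).mulVec (Pi.single i 1)) ((XT r.val t).mulVec (Pi.single j 1)) k := by decide +kernel

end Cfsg.Agent.H16.G23
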